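import Cfsg.Agent.Be.I
import Cfsg.Agent.Sz.SL2
import Cfsg.Agent.H2.Quat
import Cfsg.Agent.FT.Main

/-! Consequences of the structure theorem `BeI`: the statements S1220, S1221, S1223. -/

set_option autoImplicit false

namespace Cfsg.Agent.Be

open Subgroup Cfsg.Agent.H6

variable {G : Type*} [Group G] [Finite G] {H : Subgroup G}

/-- in rank one the product of two involutions lies in `O(G)` -/
theorem mul_mem_oddCore (hH : IsStronglyEmbedded H) (h4 : ¬ Four H) {u v : G} (hu : orderOf u = 2)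
    (hv : orderOf v = 2) : u * v ∈ oddCore G := by
  obtain ⟨a, ha, a2⟩ := SE.exists_involution hH
  obtain ⟨g, rfl⟩ := isConj_iff.1 (SE.isConj_involutions hH a2 hu)
  obtain ⟨h, rfl⟩ := isConj_iff.1 (SE.isConj_involutions hH a2 hv)
  have hz := zstar (isolated_of_not_four hH h4 ha a2)
  have := mul_mem (inv_mem (hz g)) (hz h)
  have ai : a⁻¹ = a := inv_eq_of_mul_eq_one_right (sq_of_two a2)
  simpa [mul_assoc, ai, ← mul_assoc a a, sq_of_two a2] using this

theorem oddCore_sup (hH : IsStronglyEmbedded H) (h4 : ¬ Four H) : oddCore G ⊔ H = ⊤ := by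
  obtain ⟨a, ha, a2⟩ := SE.exists_involution hH
  refine eq_top_iff.2 fun g _ => ?_
  obtain ⟨o, ho, hc⟩ := rank_one hH h4 ha a2 g
  simpa using mul_mem_sup ho (SE.mem_of_commute hH ha a2 hc)

theorem eq_one_of_two_of_odd {K : Type*} [Group K] {Q : Subgroup K} (hQ : IsPGroup 2 Q) {x : K}
    (hx : x ∈ Q) (h : Odd (orderOf x)) : x = 1 := by
  obtain ⟨k, hk⟩ := hQ ⟨x, hx⟩
  rw [← orderOf_eq_one_iff]
  exact Nat.Coprime.eq_one_of_dvd ((Nat.coprime_two_right.2 h).pow_right k)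
    (orderOf_dvd_of_pow_eq_one (congrArg Subtype.val hk))

theorem s1220 [BeI] (hH : IsStronglyEmbedded H) :
    (∀ g₁ g₂ : G, g₁ ∉ H → g₂ ∉ H → ∃ h ∈ H, g₂⁻¹ * (h * g₁) ∈ H) ∨
    ((∀ S : Sylow 2 G, IsCyclic S ∨ ∃ m : ℕ, 1 ≤ m ∧
      Nonempty ((S : Subgroup G) ≃* QuaternionGroup (2 ^ m))) ∧ oddCore G ⊔ H = ⊤) := by
  by_cases h4 : Four H
  · exact Or.inl fun _ _ => two_trans hH h4
  refine Or.inr ⟨fun S => ?_, oddCore_sup hH h4⟩
  refine (H2.isCyclic_or_quaternion S.isPGroup' fun x y hx hy => ?_).imp_right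
    fun ⟨_, n, h⟩ => ⟨n + 1, by omega, h⟩
  by_cases y1 : y = 1
  · exact y1 ▸ one_mem _
  have ho := odd_orderOf_of_mem odd_card_oddCore (mul_mem_oddCore hH h4
    ((orderOf_coe x).trans hx) ((orderOf_coe y).trans (two_of_sq (by rwa [← pow_two]) y1)))
  have hk : x * y = 1 := Subtype.ext (eq_one_of_two_of_odd S.isPGroup' (x * y).2 ho)
  exact eq_inv_of_mul_eq_one_right hk ▸ inv_mem (mem_zpowers x)

theorem comap_le_oddCore {K : Type*} [Group K] (f : G →* K) (hf : Odd (Nat.card f.ker))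
    {X : Subgroup K} [X.Normal] (hX : ∀ x ∈ X, Odd (orderOf x)) : X.comap f ≤ oddCore G := by
  refine le_oddCore inferInstance (Sz.odd_card_of_forall fun x hx => ?_)
  have h1 : x ^ orderOf (f x) ∈ f.ker := by rw [MonoidHom.mem_ker, map_pow, pow_orderOf_eq_one]
  exact ((hX _ hx).mul (odd_orderOf_of_mem hf h1)).of_dvd_nat
    (orderOf_dvd_of_pow_eq_one (by rw [pow_mul, pow_orderOf_eq_one]))

theorem s1221 [BeI] (hH : IsStronglyEmbedded H) : (oddCore H).map H.subtype ≤ oddCore G := by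
  have := oddCore_normal (G := G)
  have hn := oddCore_normal (G := H)
  by_cases h4 : Four H
  · obtain ⟨K, _, _, f, hf, hk, hkH, S, hS, -, hQ⟩ := sys_quot hH h4
    have hc := normalCore_map f hf (hk.trans (normalCore_eq hH h4).symm)
    rintro _ ⟨w, hw, rfl⟩
    have ho : ∀ y ∈ oddCore H, Odd (orderOf (f y)) := fun y hy =>
      (odd_orderOf_of_mem odd_card_oddCore hy).of_dvd_nat (orderOf_map_dvd (f.comp H.subtype) y)
    have wH : f w ∈ S.H := hS ▸ mem_map_of_mem f w.2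
    have h1 : ∀ x ∈ S.Q, f w * x = x * f w := fun x hx => by
      obtain ⟨y, hy, rfl⟩ := hS ▸ S.QH hx
      have h2 := ho _ (mul_mem hw (hn.conj_mem _ (inv_mem hw) ⟨y, hy⟩))
      have h3 := eq_one_of_two_of_odd hQ (mul_mem (S.Qn _ wH _ hx) (inv_mem hx))
        (by simpa [mul_assoc] using h2)
      rwa [mul_inv_eq_one, mul_inv_eq_iff_eq_mul] at h3
    obtain ⟨x, hx, d, hd, e⟩ := S.exists_QD wH
    have h2 : Commute (f w) d⁻¹ := by
      rw [eq_inv_mul_iff_mul_eq.2 e.symm]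
      exact ((Commute.inv_right (h1 x hx)).mul_right rfl).inv_right
    have h3 := eq_one_of_two_of_odd hQ hx (by
      rw [eq_mul_inv_of_mul_eq e.symm]
      exact ((ho w hw).mul (S.D_odd (inv_mem hd))).of_dvd_nat h2.orderOf_mul_dvd_mul_orderOf)
    rw [h3, one_mul] at e
    rw [← hk, MonoidHom.mem_ker, ← mem_bot, ← hc, ← hS]
    intro g
    simpa using S.conj_mem_H_of_cent (e ▸ hd) h1 g⁻¹
  · let π := QuotientGroup.mk' (oddCore G)
    have hs : Function.Surjective (π.comp H.subtype) := fun q => by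
      obtain ⟨g, rfl⟩ := QuotientGroup.mk'_surjective _ q
      obtain ⟨o, ho, h, hh, rfl⟩ := mem_sup_of_normal_left.1 (oddCore_sup hH h4 ▸ mem_top g)
      exact ⟨⟨h, hh⟩, by simp [π, (QuotientGroup.eq_one_iff o).2 ho]⟩
    have := hn.map _ hs
    refine le_trans ?_ (comap_le_oddCore π (by simpa [π] using odd_card_oddCore)
      (X := (oddCore H).map (π.comp H.subtype)) ?_)
    · rintro _ ⟨w, hw, rfl⟩; exact ⟨w, hw, rfl⟩
    · rintro _ ⟨w, hw, rfl⟩
      exact (odd_orderOf_of_mem odd_card_oddCore hw).of_dvd_nat (orderOf_map_dvd _ w)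

theorem s1223 [BeI] (hH : IsStronglyEmbedded H) (hcore : H.normalCore = ⊥) {u : G}
    (hu : orderOf u = 2) (huH : u ∉ H) {j : G}
    (hj : j ∈ H ⊓ H.map (MulAut.conj u).toMonoidHom) (hj1 : j ≠ 1) (hinv : u * j * u⁻¹ = j⁻¹) :
    Odd (Nat.card (centralizer ({j} : Set G))) := by
  by_contra he
  obtain ⟨⟨v, hv⟩, v2⟩ := exists_prime_orderOf_dvd_card' (hp := ⟨Nat.prime_two⟩) 2
    (even_iff_two_dvd.1 (Nat.not_odd_iff_even.1 he))
  rw [← orderOf_coe] at v2
  replace hv : v * j = j * v := (hv j rfl).symm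
  have jo := odd_orderOf_of_mem (hH.2.2 u huH) hj
  by_cases h4 : Four H
  · obtain ⟨K, _, _, f, -, hk, -, S, -⟩ := sys_quot hH h4
    have hf : Function.Injective f := by
      rw [← MonoidHom.ker_eq_bot_iff, hk, ← normalCore_eq hH h4, hcore]
    have ui : u⁻¹ = u := inv_eq_of_mul_eq_one_right (sq_of_two hu)
    refine ne_one_of_two v2 (hf ((S.sr (y := f j) (u := f u) ?_ ?_ ?_ ?_ ?_).trans f.map_one.symm))
    · rw [← map_mul, sq_of_two hu, map_one]
    · rw [← map_mul, ← map_mul, ← map_inv, ← hinv, ui]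
    · rw [← map_mul, ← f.map_one]
      exact fun e => hj1 (Sz.eq_one_of_odd_of_sq jo (hf e))
    · rw [← map_mul, sq_of_two v2, map_one]
    · rw [← map_mul, hv, map_mul]
  · refine hj1 (eq_one_of_inverted_by_odd
      (odd_orderOf_of_mem odd_card_oddCore (mul_mem_oddCore hH h4 hu v2)) jo ?_)
    rw [← hinv, mul_assoc u, hv]; group

/-- in a simple group with elementary abelian Sylow `2`-subgroups and a strongly embedded subgroup
containing a four-group, centralisers of involutions are `2`-groups -/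
theorem cent_sq_eq_one [BeI] [IsSimpleGroup G] (hH : IsStronglyEmbedded H) (h4 : Four H)
    (h2 : ∀ P : Subgroup G, IsPGroup 2 P → ∀ x ∈ P, x * x = 1) {u d : G} (hu : u ∈ H)
    (u2 : orderOf u = 2) (hd : d * u = u * d) : d * d = 1 := by
  obtain ⟨K, _, _, f, hf, hk, hkH, S, hS, hr, hQ⟩ := sys_quot hH h4
  have hi : Function.Injective f := (MonoidHom.ker_eq_bot_iff f).1
    ((f.normal_ker.eq_bot_or_eq_top).resolve_right fun e => hH.1 (top_le_iff.1 (e ▸ hkH)))
  have := (MulEquiv.ofBijective f ⟨hi, hf⟩).symm.isSimpleGroup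
  have hQ2 : ∀ x ∈ S.Q, x * x = 1 := fun x hx => by
    obtain ⟨y, rfl⟩ := hf x
    rw [← map_mul, h2 _ (hQ.comap_of_injective f hi) y hx, map_one]
  have rr := hQ2 _ S.rQ
  have ri : S.r⁻¹ = S.r := inv_eq_of_mul_eq_one_right rr
  have str := S.str
  have h3 : (S.s * S.t) ^ 3 = 1 := by
    have r1 : S.r ≠ 1 := fun e => S.tH (by
      have : S.s = S.t := by simpa [e, mul_assoc] using congrArg (fun x => S.t * x * S.t) str
      exact this ▸ S.QH S.sQ)
    obtain ⟨a, ha, e⟩ := S.exists_K_conj S.rQ r1 rr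
    have h1 := S.str_conj ha
    have h4 : S.t * S.r * S.t = S.s * S.t * S.r := by
      have : S.s = S.t * (S.r * S.t * S.r) * S.t := by
        rw [ri] at str; rw [← str]; simp [mul_assoc]
      rw [this]; simp [mul_assoc, rr]
    have m := S.Qn' ha.1 S.rQ
    rw [← e, h4, mul_assoc _ (a * a)] at h1
    have h5 := (S.bru_unique S.sQ m (S.QH S.rQ)
      (mul_mem (mul_mem ha.1 ha.1) (inv_mem (S.QH m))) h1).2
    have h6 := Sz.eq_one_of_odd_of_sq (S.D_odd ha.mem_D) (S.eq_one_of_QD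
      (eq_mul_inv_iff_mul_eq.1 h5 ▸ mul_mem S.rQ m) (mul_mem ha.mem_D ha.mem_D))
    rw [h6, one_mul, inv_one, mul_one] at e
    rw [e, S.s_inv] at str
    calc (S.s * S.t) ^ 3 = S.s * (S.t * S.s * S.t) * S.s * S.t := by simp only [pow_succ]; group
      _ = 1 := by rw [str]; simp [mul_assoc]
  obtain ⟨F, _, _, ⟨c⟩⟩ := hr.exists_co
  have uH : f u ∈ S.H := hS ▸ mem_map_of_mem f hu
  have uu : f u * f u = 1 := by rw [← map_mul, sq_of_two u2, map_one]
  have u1 : f u ≠ 1 := fun e => ne_one_of_two u2 (hi (e.trans f.map_one.symm))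
  have uQ := S.inv_mem_Q uH uu
  have hc : f d * f u = f u * f d := by rw [← map_mul, hd, map_mul]
  apply hi
  rw [map_mul, map_one]
  rcases (c.mem_L h3 (g := f d)).1 (S.eq_top (L := (c.ψ h3).range) (fun x hx => by
    obtain ⟨y, rfl⟩ := c.e_surj x hx (hQ2 x hx); exact c.e_L h3 y) (c.t_L h3) ▸ mem_top _) with
    ⟨x, a, -, e⟩ | ⟨x, a, y, -, e⟩
  · have : c.k a = 1 := by_contra fun h => u1 (S.K_free (c.k_isK a) h uQ (by
      rw [e, ← mul_assoc (f u), ← c.e_comm x uQ, mul_assoc, mul_assoc] at hc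
      exact mul_left_cancel hc))
    rw [e, this, mul_one, c.e_sq]
  · exact (S.not_mem_xth (mul_mem (c.e_H x) (c.k_H a)) (c.e_H y)
      (by simpa [e, mul_assoc] using S.mem_H_of_comm uQ u1 hc)).elim

end Cfsg.Agent.Be
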