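import Cfsg.Agent.Be.Cor1
import Cfsg.Agent.Be.Cor2
import Cfsg.Agent.H5.GA
import Cfsg.Agent.H3.Basic
import Cfsg.Agent.L.SylowIn

/-! S1245 from the structure theorem `BeI`. -/

set_option autoImplicit false

namespace Cfsg.Agent.Be

open Subgroup Cfsg.Agent.L

variable {G : Type*} [Group G] [Finite G]

instance instFactPrimeTwoBe : Fact (Nat.Prime 2) := ⟨Nat.prime_two⟩

theorem odd_fusion_top (S : Sylow 2 G) (hS : ∀ x ∈ S, ∀ y ∈ S, x * y = y * x) {x : G}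
    (hx : x ∈ S) : Odd {y | y ∈ S ∧ IsConj x y}.ncard := by
  classical
  have := Fintype.ofFinite G
  have h1 := H5.sum_eq_sum_centralizer (A := ZMod 2) S.isPGroup' (by decide)
    (fun y => if IsConj x y then 1 else 0) fun u _ y => by simp only [H5.isConj_conj_iff]
  have h2 : ¬2 ∣ (centralizer ({x} : Set G)).index := fun h => S.not_dvd_index
    (h.trans (index_dvd_of_le fun y hy => mem_centralizer_iff.2 (by rintro _ rfl; exact hS _ hx y hy)))
  rw [Finset.sum_boole, Finset.sum_boole, H3.card_filter_isConj,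
    (ZMod.natCast_eq_one_iff_odd.2 (Nat.odd_iff.2 (Nat.two_dvd_ne_zero.1 h2))), eq_comm,
    ZMod.natCast_eq_one_iff_odd] at h1
  convert h1 using 1
  rw [← Set.ncard_coe_finset]; congr 1; ext y
  simp only [Set.mem_setOf_eq, Finset.coe_filter, Finset.mem_filter, Finset.mem_univ, true_and]
  refine and_congr_left fun hc => ⟨fun hy z hz => hS z hz y hy, fun hy => ?_⟩
  have h3 : IsPGroup 2 (zpowers y) := by
    obtain ⟨g, rfl⟩ := isConj_iff.1 hc
    obtain ⟨k, hk⟩ := S.isPGroup' ⟨x, hx⟩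
    refine IsPGroup.of_card_dvd_pow (n := k) ?_
    rw [Nat.card_zpowers, orderOf_dvd_iff_pow_eq_one, conj_pow,
      show x ^ 2 ^ k = 1 from congrArg Subtype.val hk]
    simp
  rw [← SetLike.mem_coe, ← Sylow.coe_coe, ← S.is_maximal' (h3.to_sup_of_normal_right' S.isPGroup'
    (zpowers_le.2 (centralizer_le_normalizer _ hy))) le_sup_right]
  exact mem_sup_left (mem_zpowers y)

theorem odd_fusion {Y S : Subgroup G} (h : IsSylowIn 2 S Y) (hS : ∀ x ∈ S, ∀ y ∈ S, x * y = y * x)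
    {x : G} (hx : x ∈ S) : Odd {y | y ∈ S ∧ ∃ g ∈ Y, g * x * g⁻¹ = y}.ncard := by
  have h1 := odd_fusion_top h.toSylow (fun a ha b hb => Subtype.ext (hS _ ha _ hb))
    (x := ⟨x, h.le hx⟩) hx
  rw [← Set.ncard_image_of_injective _ Subtype.val_injective] at h1
  convert h1 using 2
  ext y
  simp only [Set.mem_setOf_eq, Set.mem_image, isConj_iff]
  exact ⟨fun ⟨hy, g, hg, e⟩ => ⟨⟨y, h.le hy⟩, ⟨hy, ⟨g, hg⟩, Subtype.ext e⟩, rfl⟩,
    fun ⟨_, ⟨hy, g, e⟩, e'⟩ => ⟨e' ▸ hy, g, g.2, e' ▸ congrArg Subtype.val e⟩⟩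

theorem zs_in {Y S : Subgroup G} (hS : IsSylowIn 2 S Y) {x : G} (hx : x ∈ S)
    (h : ∀ g ∈ Y, g * x * g⁻¹ ∈ S → g * x * g⁻¹ = x) :
    ∃ O : Subgroup G, O ≤ Y ∧ (∀ o ∈ O, Odd (orderOf o)) ∧ (∀ g ∈ Y, ∀ o ∈ O, g * o * g⁻¹ ∈ O) ∧
      ∀ g ∈ Y, ∃ o ∈ O, o⁻¹ * g * x = x * (o⁻¹ * g) := by
  refine ⟨(oddCore Y).map Y.subtype, map_subtype_le _, ?_, ?_, fun g hg => ?_⟩
  · rintro _ ⟨o, ho, rfl⟩
    exact orderOf_coe o ▸ odd_orderOf_of_mem H6.odd_card_oddCore ho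
  · rintro g hg _ ⟨o, ho, rfl⟩
    exact ⟨_, oddCore_normal.conj_mem o ho ⟨g, hg⟩, rfl⟩
  · obtain ⟨o, ho, hc⟩ := H6.exists_core_mul_of_wc hS.toSylow (x := ⟨x, hS.le hx⟩) hx
      (fun g hg => Subtype.ext (h g g.2 hg)) ⟨g, hg⟩
    exact ⟨o, ⟨o, ho, rfl⟩, congrArg Subtype.val hc⟩

omit [Finite G] in
theorem not_odd_four {F : Set G} (ho : Odd F.ncard) {a b c d : G}
    (h : ∀ y, y ∈ F ↔ y = a ∨ y = b ∨ y = c ∨ y = d)
    (h1 : a ≠ b) (h2 : a ≠ c) (h3 : a ≠ d) (h4 : b ≠ c) (h5 : b ≠ d) (h6 : c ≠ d) : False := by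
  obtain rfl : F = {a, b, c, d} := Set.ext h
  revert ho
  rw [Set.ncard_insert_of_notMem (by simp [*]), Set.ncard_insert_of_notMem (by simp [*]),
    Set.ncard_pair h6]
  decide

/-- the elementary abelian group `⟨x, a, b⟩` -/
def E8 (x a b : G) (xx : x * x = 1) (aa : a * a = 1) (bb : b * b = 1) (ab : a * b = b * a)
    (xa : x * a = a * x) (xb : x * b = b * x) : Subgroup G where
  carrier := {y | ∃ i j k : ℕ, y = x ^ i * a ^ j * b ^ k}
  mul_mem' := by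
    rintro _ _ ⟨i, j, k, rfl⟩ ⟨i', j', k', rfl⟩
    refine ⟨i + i', j + j', k + k', ?_⟩
    rw [((Commute.pow_pow xb _ _).mul_left (Commute.pow_pow ab _ _)).symm.mul_mul_mul_comm,
      (Commute.pow_pow xa _ _).symm.mul_mul_mul_comm, pow_add, pow_add, pow_add]
  one_mem' := ⟨0, 0, 0, by simp⟩
  inv_mem' := by
    rintro _ ⟨i, j, k, rfl⟩
    refine ⟨i, j, k, inv_eq_of_mul_eq_one_right ?_⟩
    rw [((Commute.pow_pow xb _ _).mul_left (Commute.pow_pow ab _ _)).symm.mul_mul_mul_comm,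
      (Commute.pow_pow xa _ _).symm.mul_mul_mul_comm, ← (Commute.refl x).mul_pow,
      ← (Commute.refl a).mul_pow, ← (Commute.refl b).mul_pow, xx, aa, bb]
    simp

omit [Finite G] in
theorem mem_E8 {x a b : G} {xx : x * x = 1} {aa : a * a = 1} {bb : b * b = 1} {ab : a * b = b * a}
    {xa : x * a = a * x} {xb : x * b = b * x} {y : G} : y ∈ E8 x a b xx aa bb ab xa xb ↔
      (y = 1 ∨ y = a ∨ y = b ∨ y = a * b) ∨ y = x ∨ y = x * a ∨ y = x * b ∨ y = x * (a * b) := by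
  constructor
  · rintro ⟨i, j, k, rfl⟩
    have h : ∀ {z : G} (_ : z * z = 1) (i : ℕ), z ^ i = 1 ∨ z ^ i = z := fun {z} hz i => by
      rw [← pow_mod_orderOf, pow_mod_orderOf, ← Nat.div_add_mod i 2, pow_add, pow_mul, pow_two, hz]
      rcases Nat.mod_two_eq_zero_or_one i with h | h <;> simp [h]
    rcases h xx i with h1 | h1 <;> rcases h aa j with h2 | h2 <;> rcases h bb k with h3 | h3 <;>
      simp [h1, h2, h3, mul_assoc]
  · rintro ((h | h | h | h) | h | h | h | h) <;> rw [h]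
    exacts [⟨0, 0, 0, by simp⟩, ⟨0, 1, 0, by simp⟩, ⟨0, 0, 1, by simp⟩, ⟨0, 1, 1, by simp⟩,
      ⟨1, 0, 0, by simp⟩, ⟨1, 1, 0, by simp⟩, ⟨1, 0, 1, by simp⟩, ⟨1, 1, 1, by simp [mul_assoc]⟩]

omit [Finite G] in
theorem sq_E8 {x a b : G} {xx : x * x = 1} {aa : a * a = 1} {bb : b * b = 1} {ab : a * b = b * a}
    {xa : x * a = a * x} {xb : x * b = b * x} {y : G} (h : y ∈ E8 x a b xx aa bb ab xa xb) :
    y * y = 1 := by
  obtain ⟨i, j, k, rfl⟩ := h
  rw [((Commute.pow_pow xb _ _).mul_left (Commute.pow_pow ab _ _)).symm.mul_mul_mul_comm,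
    (Commute.pow_pow xa _ _).symm.mul_mul_mul_comm, ← (Commute.refl x).mul_pow,
    ← (Commute.refl a).mul_pow, ← (Commute.refl b).mul_pow, xx, aa, bb]
  simp

omit [Finite G] in
theorem pgroup_of_sq {P : Subgroup G} (h : ∀ y ∈ P, y * y = 1) : IsPGroup 2 P :=
  fun y => ⟨1, Subtype.ext (by simpa [pow_two] using h y y.2)⟩

/-- the hypotheses of S1245 -/
structure Ab2 (t : G) (E E₀ : Subgroup G) (a b d : G) : Prop extends L2 E₀ a b d where
  ab2 : ∀ P : Subgroup G, IsPGroup 2 P → ∀ x ∈ P, ∀ y ∈ P, x * y = y * x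
  tt : t * t = 1
  tE : t ∉ E
  le : E₀ ≤ E
  nrm : ∀ e ∈ E, ∀ y ∈ E₀, e * y * e⁻¹ ∈ E₀
  ct : ∀ e ∈ E, e * t = t * e
  dec : ∀ c, c * t = t * c → c ∈ E ∨ t * c ∈ E
  cE : ∀ e ∈ E, (∀ y ∈ E₀, e * y = y * e) → e = 1

namespace L2
variable {L : Subgroup G} {a b d : G} (h : L2 L a b d)
include h
omit [Finite G]

theorem bL : b ∈ L := h.da ▸ mul_mem (mul_mem h.dL h.aL) (inv_mem h.dL)
theorem bb : b * b = 1 := by rw [← h.da]; simp [mul_assoc, ← mul_assoc a a, h.aa]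
theorem b1 : b ≠ 1 := fun e => h.a1 (by simpa [e] using h.da)
theorem c1 : a * b ≠ 1 := fun e => h.b1 (by simpa [e] using h.db)
theorem ne_ab : a ≠ b := fun e => h.c1 (e ▸ h.aa)
theorem cc : a * b * (a * b) = 1 := by
  rw [mul_assoc, ← mul_assoc b, ← h.ab, mul_assoc, h.bb, mul_one, h.aa]
theorem dc : d * (a * b) * d⁻¹ = a := by
  have : d * (a * b) * d⁻¹ = (d * a * d⁻¹) * (d * b * d⁻¹) := by group
  rw [this, h.da, h.db, ← mul_assoc, ← h.ab, mul_assoc, h.bb, mul_one]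
theorem ne_ac : a ≠ a * b := by simpa using h.b1
theorem ne_bc : b ≠ a * b := by simpa using h.a1
theorem sq {y : G} (hy : y = 1 ∨ y = a ∨ y = b ∨ y = a * b) : y * y = 1 := by
  rcases hy with rfl | rfl | rfl | rfl
  exacts [one_mul 1, h.aa, h.bb, h.cc]
theorem mem {y : G} (hy : y = 1 ∨ y = a ∨ y = b ∨ y = a * b) : y ∈ L := by
  rcases hy with rfl | rfl | rfl | rfl
  exacts [one_mem _, h.aL, h.bL, mul_mem h.aL h.bL]

theorem comm {x y : G} (hx : x = 1 ∨ x = a ∨ x = b ∨ x = a * b)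
    (hy : y = 1 ∨ y = a ∨ y = b ∨ y = a * b) : Commute x y := by
  have h1 : Commute a b := h.ab
  have h2 : Commute a (a * b) := (Commute.refl a).mul_right h1
  have h3 : Commute b (a * b) := h1.symm.mul_right (Commute.refl b)
  rcases hx with rfl | rfl | rfl | rfl <;> rcases hy with rfl | rfl | rfl | rfl <;>
    first | exact Commute.one_left _ | exact Commute.one_right _ | exact Commute.refl _ |
      assumption | exact Commute.symm ‹_›

/-- a property invariant under `d` holds for all or none of `a, b, a b` -/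
theorem cyc {P : G → Prop} (hP : ∀ y, P y → P (d * y * d⁻¹)) {y : G}
    (hy : y = a ∨ y = b ∨ y = a * b) (h0 : P y) : P a ∧ P b ∧ P (a * b) := by
  have h1 := h.da ▸ hP a
  have h2 := h.db ▸ hP b
  have h3 := h.dc ▸ hP (a * b)
  rcases hy with rfl | rfl | rfl <;> tauto

theorem cent_of_inv (h1 : ∀ y ∈ L, y * y = 1 → y * a = a * y) {y : G} (hy : y ∈ L)
    (h2 : y * y = 1) : y = 1 ∨ y = a ∨ y = b ∨ y = a * b := by
  refine h.cent y hy (h1 y hy h2) ?_
  have := h1 (d⁻¹ * y * d) (mul_mem (mul_mem (inv_mem h.dL) hy) h.dL)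
    (by simp [mul_assoc, ← mul_assoc y y, h2])
  rw [← h.da]
  calc y * (d * a * d⁻¹) = d * (d⁻¹ * y * d * a) * d⁻¹ := by group
    _ = _ := by rw [this]; group

end L2

namespace Ab2
variable {t : G} {E E₀ : Subgroup G} {a b d : G} (h : Ab2 t E E₀ a b d)
include h

omit [Finite G] in
theorem odd_mem {c : G} (hc : c * t = t * c) (ho : Odd (orderOf c)) : c ∈ E :=
  (h.dec c hc).elim id fun e => Sz.mem_of_sq_mem_of_odd ho (by
    have := mul_mem e e
    rwa [mul_assoc, ← mul_assoc c, hc, mul_assoc, ← mul_assoc, h.tt, one_mul] at this)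

omit [Finite G] in
theorem nrm' {c : G} (hc : c * t = t * c) {y : G} (hy : y ∈ E₀) : c * y * c⁻¹ ∈ E₀ := by
  refine (h.dec c hc).elim (fun e => h.nrm c e y hy) fun e => ?_
  have h1 := h.nrm _ e y hy
  rwa [← hc, mul_assoc c, ← h.ct y (h.le hy), mul_inv_rev, mul_assoc c, mul_assoc y,
    mul_inv_cancel_left, ← mul_assoc] at h1

omit [Finite G] in
theorem odd_eq_one {O : Subgroup G} (ho : ∀ o ∈ O, Odd (orderOf o)) (hc : ∀ o ∈ O, o * t = t * o)
    (hn : ∀ g ∈ E₀, ∀ o ∈ O, g * o * g⁻¹ ∈ O) {x : G} (hx : x ∈ O) : x = 1 := by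
  have h1 : ∀ x ∈ O, x ∈ E₀ → x = 1 := fun x hx hx' => by
    rcases h.simp with h2 | h2
    · rcases h2 (O ⊓ E₀) inf_le_right fun g hg y hy =>
        ⟨hn g hg y hy.1, h.nrm g (h.le hg) y hy.2⟩ with e | e
      · exact mem_bot.1 (e ▸ ⟨hx, hx'⟩)
      · exact (h.a1 (Sz.eq_one_of_odd_of_sq (ho a (e.ge h.aL).1) h.aa)).elim
    · have h3 : ∀ v, (v = 1 ∨ v = a ∨ v = b ∨ v = a * b) → x * v = v * x := fun v hv => by
        have h4 := h.cent_of_inv h2 (h.nrm x (h.le hx') v (h.mem hv))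
          (by simp [mul_assoc, ← mul_assoc v v, h.sq hv])
        have := Sz.eq_one_of_odd_of_sq (d := x * v * x⁻¹ * v⁻¹) (ho _ (by
          simpa [mul_assoc] using mul_mem hx (hn v (h.mem hv) _ (inv_mem hx)))) (by
          rw [inv_eq_of_mul_eq_one_right (h.sq hv), (h.comm hv h4).mul_mul_mul_comm, h.sq hv,
            h.sq h4, one_mul])
        rwa [mul_inv_eq_one, mul_inv_eq_iff_eq_mul] at this
      exact Sz.eq_one_of_odd_of_sq (ho x hx) (h.sq (h.cent x hx' (h3 a (by simp)) (h3 b (by simp))))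
  have xE := h.odd_mem (hc x hx) (ho x hx)
  refine h.cE x xE fun y hy => ?_
  have := h1 _ (by simpa [mul_assoc] using mul_mem hx (hn y hy _ (inv_mem hx)))
    (mul_mem (h.nrm x xE y hy) (inv_mem hy))
  rwa [mul_inv_eq_one, mul_inv_eq_iff_eq_mul] at this

theorem no_inv {x : G} (hx : x ∈ E) (xx : x * x = 1) (xa : x * a = a * x) (xb : x * b = b * x)
    (xd : x * d = d * x) : x = 1 := by
  let Y : Subgroup G :=
    { carrier := {g | g ∈ E ∧ g * x * g⁻¹ * x⁻¹ ∈ E₀}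
      mul_mem' := fun {g k} hg hk => ⟨mul_mem hg.1 hk.1, by
        simpa [mul_assoc] using mul_mem (h.nrm g hg.1 _ hk.2) hg.2⟩
      one_mem' := ⟨one_mem _, by simp⟩
      inv_mem' := fun {g} hg => ⟨inv_mem hg.1, by
        simpa [mul_assoc] using h.nrm _ (inv_mem hg.1) _ (inv_mem hg.2)⟩ }
  have hY : E₀ ≤ Y := fun g hg => ⟨h.le hg, by
    simpa [mul_assoc] using mul_mem hg (h.nrm x hx _ (inv_mem hg))⟩
  obtain ⟨S, hS, hle⟩ := exists_isSylowIn_ge (H := Y)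
    (pgroup_of_sq fun y => sq_E8 (xx := xx) (aa := h.aa) (bb := h.bb) (ab := h.ab) (xa := xa)
      (xb := xb)) (by
    rintro _ ⟨i, j, k, rfl⟩
    exact mul_mem (mul_mem (Y.pow_mem ⟨hx, by simp⟩ _) (pow_mem (hY h.aL) _)) (pow_mem (hY h.bL) _))
  have hc := h.ab2 S hS.isPGroup
  have xS : x ∈ S := hle (mem_E8.2 (by simp))
  have aS : a ∈ S := hle (mem_E8.2 (by simp))
  have bS : b ∈ S := hle (mem_E8.2 (by simp))
  have key : ∀ g ∈ Y, g * x * g⁻¹ ∈ S → ∃ v, (v = 1 ∨ v = a ∨ v = b ∨ v = a * b) ∧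
      g * x * g⁻¹ = v * x := fun g hg hs =>
    ⟨_, h.cent _ hg.2 (hc _ (mul_mem hs (inv_mem xS)) _ aS) (hc _ (mul_mem hs (inv_mem xS)) _ bS),
      by group⟩
  obtain ⟨O, h1, h2, h3, h4⟩ := zs_in hS xS fun g hg hs => by
    obtain ⟨v, rfl | hv, e⟩ := key g hg hs
    · rw [e, one_mul]
    obtain ⟨k1, k2, k3⟩ := h.cyc (P := fun v => ∃ g ∈ Y, g * x * g⁻¹ = v * x)
      (fun v ⟨g, hg, e⟩ => ⟨d * g, mul_mem (hY h.dL) hg, by
        rw [mul_assoc _ d⁻¹, ← (Commute.inv_right xd).eq, ← mul_assoc, mul_assoc d v, ← e]; group⟩)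
      hv ⟨g, hg, e⟩
    refine (not_odd_four (odd_fusion hS hc xS) (a := 1 * x) (b := a * x) (c := b * x)
      (d := a * b * x) (fun y => ?_) ?_ ?_ ?_ ?_ ?_ ?_).elim
    · constructor
      · rintro ⟨hy, g, hg, rfl⟩
        obtain ⟨v, hv, e⟩ := key g hg hy
        simpa only [e, mul_left_inj] using hv
      · rintro (rfl | rfl | rfl | rfl)
        exacts [⟨by simpa, 1, one_mem _, by simp⟩, ⟨mul_mem aS xS, k1⟩, ⟨mul_mem bS xS, k2⟩,
          ⟨mul_mem (mul_mem aS bS) xS, k3⟩]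
    all_goals simp only [Ne, mul_left_inj]
    exacts [h.a1.symm, h.b1.symm, h.c1.symm, h.ne_ab, h.ne_ac, h.ne_bc]
  refine h.cE x hx fun y hy => ?_
  obtain ⟨o, ho, e⟩ := h4 y (hY hy)
  rw [h.odd_eq_one h2 (fun o ho => h.ct o (h1 ho).1) (fun g hg => h3 g (hY hg)) ho] at e
  simpa using e.symm

theorem two_mem {e : G} (he : e ∈ E) {k : ℕ} (hk : e ^ 2 ^ k = 1) (ea : e * a = a * e)
    (eb : e * b = b * e) : e = 1 ∨ e = a ∨ e = b ∨ e = a * b := by
  have h0 : ∀ (k : ℕ) (r : G), r ∈ E → Commute r a → Commute r b → Commute r d →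
      r ^ 2 ^ k = 1 → r = 1 := fun k r hr h1 h2 h3 => by
    induction k with
    | zero => simp
    | succ k ih => exact fun e => ih (h.no_inv (pow_mem hr _) (by rwa [← pow_two, ← pow_mul])
      (h1.pow_left _) (h2.pow_left _) (h3.pow_left _))
  have h1 : ∀ w, (w = 1 ∨ w = a ∨ w = b ∨ w = a * b) → d * w * d⁻¹ * (d * e * d⁻¹ * e⁻¹) = w →
      e = w := fun w hw e1 => by
    have wa : Commute w a := h.comm hw (by simp)
    have wb : Commute w b := h.comm hw (by simp)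
    have we : Commute w e := by
      rcases hw with rfl | rfl | rfl | rfl
      exacts [Commute.one_left _, ea.symm, eb.symm, Commute.mul_left ea.symm eb.symm]
    have := h0 (k + 1) (w * e) (mul_mem (h.le (h.mem hw)) he) (wa.mul_left ea) (wb.mul_left eb)
      (by calc w * e * d = d * w * d⁻¹ * (d * e * d⁻¹ * e⁻¹) * e * d := by rw [e1]
        _ = _ := by group)
      (by rw [we.mul_pow, pow_succ 2, pow_mul e, hk, pow_mul', pow_two w, h.sq hw]; simp)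
    rw [eq_inv_of_mul_eq_one_right this, inv_eq_of_mul_eq_one_right (h.sq hw)]
  have hc : ∀ v, Commute e v → Commute e (d * v * d⁻¹) → Commute (d * e * d⁻¹ * e⁻¹) (d * v * d⁻¹) :=
    fun v h1 h2 => (h1.conj d).mul_left h2.inv_left
  rcases h.cent (d * e * d⁻¹ * e⁻¹)
    (by simpa [mul_assoc] using mul_mem h.dL (h.nrm e he _ (inv_mem h.dL)))
    (h.dc ▸ hc (a * b) (Commute.mul_right ea eb) (h.dc.symm ▸ ea))
    (h.da ▸ hc a ea (h.da.symm ▸ eb)) with e1 | e1 | e1 | e1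
  · exact Or.inl (h1 1 (by simp) (by simp [e1]))
  · exact Or.inr (Or.inr (Or.inl (h1 b (by simp) (by
      rw [e1, h.db, h.ab, mul_assoc, h.aa, mul_one]))))
  · exact Or.inr (Or.inr (Or.inr (h1 _ (by simp) (by rw [e1, h.dc]))))
  · exact Or.inr (Or.inl (h1 a (by simp) (by
      rw [e1, h.da, h.ab, ← mul_assoc, h.bb, one_mul])))

/-- the Sylow `2`-subgroup -/
def T : Subgroup G :=
  E8 t a b h.tt h.aa h.bb h.ab (h.ct a (h.le h.aL)).symm (h.ct b (h.le h.bL)).symm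

omit [Finite G] in
theorem mem_T {y : G} : y ∈ h.T ↔
    (y = 1 ∨ y = a ∨ y = b ∨ y = a * b) ∨ y = t ∨ y = t * a ∨ y = t * b ∨ y = t * (a * b) := mem_E8

omit [Finite G] in
theorem tT : t ∈ h.T := h.mem_T.2 (by simp)
omit [Finite G] in
theorem aT : a ∈ h.T := h.mem_T.2 (by simp)
omit [Finite G] in
theorem bT : b ∈ h.T := h.mem_T.2 (by simp)
omit [Finite G] in
theorem sqT {y : G} (hy : y ∈ h.T) : y * y = 1 := sq_E8 hy
omit [Finite G] in
theorem commT {x y : G} (hx : x ∈ h.T) (hy : y ∈ h.T) : x * y = y * x :=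
  h.ab2 _ (pgroup_of_sq fun _ => h.sqT) x hx y hy
omit [Finite G] in
theorem t1 : t ≠ 1 := fun e => h.tE (e ▸ one_mem E)

theorem sylT : IsSylowIn 2 h.T ⊤ := by
  refine ⟨le_top, pgroup_of_sq fun _ => h.sqT, fun P hP hle _ => le_antisymm (fun y hy => ?_) hle⟩
  have hc := h.ab2 P hP
  have h1 : ∀ y ∈ P, y ∈ E → y ∈ h.T := fun y hy he => by
    obtain ⟨k, hk⟩ := hP ⟨y, hy⟩
    exact h.mem_T.2 (Or.inl (h.two_mem he (congrArg Subtype.val hk) (hc _ hy _ (hle h.aT))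
      (hc _ hy _ (hle h.bT))))
  refine (h.dec y (hc _ hy _ (hle h.tT))).elim (h1 y hy) fun e => ?_
  exact (mul_mem_cancel_left h.tT).1 (h1 _ (mul_mem (hle h.tT) hy) e)

theorem sylM {M : Subgroup G} (hM : ∀ c, c * t = t * c → c ∈ M) : IsSylowIn 2 h.T M :=
  h.sylT.of_le (fun _ hy => hM _ (h.commT hy h.tT)) le_top

theorem fus {M : Subgroup G} (hM : ∀ c, c * t = t * c → c ∈ M) :
    (∀ g ∈ M, g * t * g⁻¹ ∈ h.T → g * t * g⁻¹ = t) ∨
      ∀ u ∈ h.T, u ≠ 1 → ∃ g ∈ M, g * t * g⁻¹ = u := by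
  have dt := h.ct d (h.le h.dL)
  have hA : ∀ v, (v = a ∨ v = b ∨ v = a * b) → (∃ g ∈ M, g * t * g⁻¹ = v) → _ := fun v =>
    h.cyc (P := fun v => ∃ g ∈ M, g * t * g⁻¹ = v)
      fun v ⟨g, hg, e⟩ => ⟨d * g, mul_mem (hM d dt) hg, by rw [← e]; group⟩
  have hB : ∀ v, (v = a ∨ v = b ∨ v = a * b) → (∃ g ∈ M, g * t * g⁻¹ = t * v) → _ := fun v =>
    h.cyc (P := fun v => ∃ g ∈ M, g * t * g⁻¹ = t * v)
      fun v ⟨g, hg, e⟩ => ⟨d * g, mul_mem (hM d dt) hg, by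
        rw [← mul_assoc t, ← mul_assoc t, ← dt, mul_assoc d t, ← e]; group⟩
  have ho := odd_fusion (h.sylM hM) (fun _ hx _ => h.commT hx) h.tT
  have h0 : ∃ g ∈ M, g * t * g⁻¹ = t := ⟨1, one_mem _, by simp⟩
  have h1 : ¬∃ g ∈ M, g * t * g⁻¹ = 1 := fun ⟨g, _, e⟩ => h.t1 (by simpa using e)
  have n : ∀ v ∈ E₀, t ≠ v := fun v hv e => h.tE (e ▸ h.le hv)
  by_cases pA : ∃ g ∈ M, g * t * g⁻¹ = a <;> by_cases pB : ∃ g ∈ M, g * t * g⁻¹ = t * a
  · have := hA a (by simp) pA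
    have := hB a (by simp) pB
    refine Or.inr fun u hu u1 => ?_
    rcases h.mem_T.1 hu with (rfl | rfl | rfl | rfl) | rfl | rfl | rfl | rfl <;> tauto
  · have := hA a (by simp) pA
    refine (not_odd_four ho (fun y => ⟨fun ⟨hy, e⟩ => ?_, ?_⟩) (n a h.aL) (n b h.bL)
      (n _ (mul_mem h.aL h.bL)) h.ne_ab h.ne_ac h.ne_bc).elim
    · rcases h.mem_T.1 hy with (rfl | rfl | rfl | rfl) | rfl | rfl | rfl | rfl
      exacts [(h1 e).elim, by simp, by simp, by simp, by simp, (pB e).elim,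
        (pB (hB _ (by simp) e).1).elim, (pB (hB _ (by simp) e).1).elim]
    · rintro (rfl | rfl | rfl | rfl) <;> exact ⟨h.mem_T.2 (by simp), by tauto⟩
  · have := hB a (by simp) pB
    refine (not_odd_four ho (a := t * 1) (b := t * a) (c := t * b) (d := t * (a * b))
      (fun y => ⟨fun ⟨hy, e⟩ => ?_, ?_⟩) ?_ ?_ ?_ ?_ ?_ ?_).elim
    · rcases h.mem_T.1 hy with (rfl | rfl | rfl | rfl) | rfl | rfl | rfl | rfl
      exacts [(h1 e).elim, (pA e).elim, (pA (hA _ (by simp) e).1).elim,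
        (pA (hA _ (by simp) e).1).elim, by simp, by simp, by simp, by simp]
    · rw [mul_one]
      rintro (rfl | rfl | rfl | rfl) <;> exact ⟨h.mem_T.2 (by simp), by tauto⟩
    all_goals simp only [Ne, mul_right_inj]
    exacts [h.a1.symm, h.b1.symm, h.c1.symm, h.ne_ab, h.ne_ac, h.ne_bc]
  · refine Or.inl fun g hg hy => ?_
    rcases h.mem_T.1 hy with (e | e | e | e) | e | e | e | e
    exacts [(h1 ⟨g, hg, e⟩).elim, (pA ⟨g, hg, e⟩).elim, (pA (hA _ (by simp) ⟨g, hg, e⟩).1).elim,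
      (pA (hA _ (by simp) ⟨g, hg, e⟩).1).elim, e, (pB ⟨g, hg, e⟩).elim,
      (pB (hB _ (by simp) ⟨g, hg, e⟩).1).elim, (pB (hB _ (by simp) ⟨g, hg, e⟩).1).elim]

/-- a proper overgroup of `C(t)` cannot fuse the involutions of `T` -/
theorem not_fused [BeI] [IsSimpleGroup G] {M : Subgroup G} (hM : ∀ c, c * t = t * c → c ∈ M)
    (h1 : M ≠ ⊤) (h2 : ∀ u ∈ h.T, u ≠ 1 → ∃ g ∈ M, g * t * g⁻¹ = u) : False := by
  have t2 := two_of_sq h.tt h.t1
  have hz : ∀ u : G, orderOf u = 2 → IsPGroup 2 (zpowers u) := fun u hu =>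
    IsPGroup.of_card (n := 1) (by simp [hu])
  have h3 : ∀ u ∈ M, orderOf u = 2 → ∃ g ∈ M, g * t * g⁻¹ = u := fun u hu u2 => by
    obtain ⟨g, hg, e⟩ := (h.sylM hM).exists_conj_mem (hz u u2) (zpowers_le.2 hu)
    obtain ⟨k, hk, e'⟩ := h2 _ (e u (mem_zpowers u)) (by simpa using ne_one_of_two u2)
    exact ⟨g⁻¹ * k, mul_mem (inv_mem hg) hk, by
      calc _ = g⁻¹ * (k * t * k⁻¹) * g := by group
        _ = u := by rw [e']; group⟩
  have hSE : IsStronglyEmbedded M := H6.isStronglyEmbedded_iff.2 ⟨h1,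
    even_iff_two_dvd.2 (t2 ▸ orderOf_dvd_natCard M (hM t rfl)), fun u hu u2 g hg => by
      obtain ⟨m, hm, rfl⟩ := h3 u hu u2
      obtain ⟨k, hk, e⟩ := h3 _ hg (by rwa [H6.orderOf_conj])
      have := hM (k⁻¹ * g * m) (by
        calc _ = k⁻¹ * (g * (m * t * m⁻¹) * g⁻¹) * g * m := by group
          _ = _ := by rw [← e]; group)
      simpa [mul_assoc] using mul_mem (mul_mem hk this) (inv_mem hm)⟩
  have hT := (h.sylM hM).le
  have dd := cent_sq_eq_one hSE ⟨a, hT h.aT, b, hT h.bT, two_of_sq h.aa h.a1, two_of_sq h.bb h.b1,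
    h.ne_ab, h.ab⟩ (fun P hP x hx => by
      obtain ⟨g, -, e⟩ := h.sylT.exists_conj_mem hP le_top
      simpa using h.sqT (e x hx)) (hM t rfl) t2 (h.ct d (h.le h.dL))
  refine h.ne_ac ?_
  rw [← h.db, ← h.da]
  calc a = d * d * a * (d * d)⁻¹ := by simp [dd]
    _ = _ := by group

theorem exists_n [IsSimpleGroup G] {u : G} (hu : u ∈ h.T) (u1 : u ≠ 1) :
    ∃ n : G, (∀ y, y ∈ h.T ↔ n * y * n⁻¹ ∈ h.T) ∧ n * t * n⁻¹ = u := by
  rcases h.fus (M := ⊤) fun _ _ => trivial with h1 | h1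
  · obtain ⟨O, -, h2, h3, h4⟩ := zs_in h.sylT h.tT h1
    have hn : O.Normal := ⟨fun o ho g => h3 g trivial o ho⟩
    obtain rfl := hn.eq_bot_or_eq_top.resolve_right fun e =>
      h.t1 (Sz.eq_one_of_odd_of_sq (h2 t (e ▸ mem_top t)) h.tt)
    have h5 : t ∈ center G := mem_center_iff.2 fun g => by simpa using h4 g trivial
    have h6 := (Normal.eq_bot_or_eq_top (H := center G) inferInstance).resolve_left
      fun e => h.t1 (mem_bot.1 (e ▸ h5))
    refine (h.ne_ab ?_).elim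
    rw [← h.da, mem_center_iff.1 (h6 ▸ mem_top a) d, mul_inv_cancel_right]
  · obtain ⟨g, -, e⟩ := h1 u hu u1
    have : IsMulCommutative (h.sylT.toSylowTop : Subgroup G) :=
      ⟨⟨fun x y => Subtype.ext (h.commT x.2 y.2)⟩⟩
    obtain ⟨n, hn, e'⟩ := h.sylT.toSylowTop.conj_eq_normalizer_conj_of_mem t g⁻¹ h.tT
      (by rw [inv_inv, e]; exact hu)
    exact ⟨n⁻¹, mem_normalizer_iff.1 (inv_mem hn), by simpa [e] using e'.symm⟩

omit [Finite G] in
/-- elements of `T` modulo `t` -/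
theorem exists_v {s : G} (hs : s ∈ h.T) :
    ∃ v, (v = 1 ∨ v = a ∨ v = b ∨ v = a * b) ∧ (s = v ∨ s = t * v) := by
  rcases h.mem_T.1 hs with hv | rfl | rfl | rfl | rfl
  exacts [⟨s, hv, Or.inl rfl⟩, ⟨1, by simp, by simp⟩, ⟨a, by simp, by simp⟩, ⟨b, by simp, by simp⟩,
    ⟨a * b, by simp, by simp⟩]

omit [Finite G] in
theorem conj_v {s v x : G} (hs : s = v ∨ s = t * v) (hv : v ∈ E₀) (hx : x * t = t * x) :
    s * x * s⁻¹ = v * x * v⁻¹ := by
  rcases hs with rfl | rfl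
  · rfl
  · rw [← h.ct v (h.le hv), mul_assoc v, ← hx]; group

omit [Finite G] in
theorem mem_of_inv {x s : G} (hx : x * t = t * x) (ho : Odd (orderOf x)) (hs : s ∈ h.T)
    (hi : s * x * s⁻¹ = x⁻¹) : x ∈ E₀ := by
  obtain ⟨v, hv, e⟩ := h.exists_v hs
  rw [h.conj_v e (h.mem hv) hx] at hi
  refine Sz.mem_of_sq_mem_of_odd ho ?_
  have := mul_mem (h.nrm x (h.odd_mem hx ho) v (h.mem hv)) (inv_mem (h.mem hv))
  rwa [show x * v * x⁻¹ * v⁻¹ = x * (v * x * v⁻¹)⁻¹ by group, hi, inv_inv] at this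

omit [Finite G] in
theorem comm_of_inv {x y s w : G} (hx : x * t = t * x) (hy : y * t = t * y) (ox : Odd (orderOf x))
    (oy : Odd (orderOf y)) (x1 : x ≠ 1) (hc : y * x = x * y) (hs : s ∈ h.T)
    (hi : s * x * s⁻¹ = x⁻¹) (hi' : s * y * s⁻¹ = y⁻¹) (hw : w ∈ h.T) (wx : w * x * w⁻¹ = x) :
    w * y * w⁻¹ = y := by
  obtain ⟨v, hv, e⟩ := h.exists_v hw
  rw [h.conj_v e (h.mem hv) hx, mul_inv_eq_iff_eq_mul] at wx
  rw [h.conj_v e (h.mem hv) hy, mul_inv_eq_iff_eq_mul]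
  exact h.ca x (h.mem_of_inv hx ox hs hi) (fun e => x1 (Sz.eq_one_of_odd_of_sq ox e)) v (h.mem hv)
    y (h.mem_of_inv hy oy hs hi') wx hc

theorem comm_of_inv' [IsSimpleGroup G] {x y u w : G} (hu : u ∈ h.T) (u1 : u ≠ 1)
    (hx : u * x * u⁻¹ = x) (hy : u * y * u⁻¹ = y) (ox : Odd (orderOf x))
    (oy : Odd (orderOf y)) (x1 : x ≠ 1) (hc : y * x = x * y)
    (hi : t * x * t⁻¹ = x⁻¹) (hi' : t * y * t⁻¹ = y⁻¹) (hw : w ∈ h.T) (wx : w * x * w⁻¹ = x) :
    w * y * w⁻¹ = y := by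
  obtain ⟨n, hn, rfl⟩ := h.exists_n hu u1
  let φ := (MulAut.conj n).symm
  have h1 : ∀ z ∈ h.T, φ z ∈ h.T := fun z hz => (hn _).2 (by simpa [φ, mul_assoc] using hz)
  have h2 : ∀ z, n * t * n⁻¹ * z * (n * t * n⁻¹)⁻¹ = z → φ z * t = t * φ z := fun z hz => by
    conv_lhs => rw [← hz]
    simp [φ, mul_assoc]
  apply φ.injective
  simpa only [map_mul, map_inv] using h.comm_of_inv (h2 x hx) (h2 y hy)
    (by rwa [MulEquiv.orderOf_eq]) (by rwa [MulEquiv.orderOf_eq]) (by simpa)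
    (by rw [← map_mul, hc, map_mul]) (h1 t h.tT) (by simpa only [map_mul, map_inv] using congrArg φ hi)
    (by simpa only [map_mul, map_inv] using congrArg φ hi') (h1 w hw)
    (by simpa only [map_mul, map_inv] using congrArg φ wx)

theorem isCoatom [BeI] [IsSimpleGroup G] : IsCoatom (centralizer ({t} : Set G)) := by
  have mc : ∀ c, c ∈ centralizer ({t} : Set G) ↔ c * t = t * c := fun c => by
    simp [mem_centralizer_iff, eq_comm]
  have hS := h.simp.resolve_right fun h1 => h.not_fused (M := normalizer (h.T : Set G))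
    (fun c hc => mem_normalizer_fintype fun y hy => by
      obtain ⟨v, hv, e⟩ := h.exists_v hy
      have h2 := h.mem_T.2 (Or.inl (h.cent_of_inv h1 (h.nrm' hc (h.mem hv))
        (by simp [mul_assoc, ← mul_assoc v v, h.sq hv])))
      rcases e with rfl | rfl
      · exact h2
      · rw [← mul_assoc, hc, mul_assoc t, mul_assoc t]; exact mul_mem h.tT h2)
    (fun e => h.ne_ab (by
      have := (normalizer_eq_top_iff.1 e).eq_bot_or_eq_top.resolve_left
        fun e => h.t1 (mem_bot.1 (e ▸ h.tT))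
      rw [← h.da, h.commT (this ▸ mem_top d) h.aT, mul_inv_cancel_right]))
    fun u hu u1 => (h.exists_n hu u1).imp fun n hn => ⟨mem_normalizer_iff.2 hn.1, hn.2⟩
  obtain ⟨n, hn, nt⟩ := h.exists_n h.aT h.a1
  refine ⟨fun e => h.tE ?_, fun M hM => by_contra fun hM1 => ?_⟩
  · rw [← nt, (mc n).1 (e ▸ mem_top n), mul_inv_cancel_right] at h
    exact h.le h.aL
  have hM' : ∀ c, c * t = t * c → c ∈ M := fun c hc => hM.le ((mc c).2 hc)
  obtain ⟨O, -, h2, h3, h4⟩ := zs_in (h.sylM hM') h.tT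
    ((h.fus hM').resolve_right (h.not_fused hM' hM1))
  have hE : ∀ g ∈ E₀, g ∈ M := fun g hg => hM' g (h.ct g (h.le hg))
  have hT := (h.sylM hM').le
  have free : ∀ o ∈ O, t * o * t⁻¹ = o → o = 1 := fun o ho e => h.odd_eq_one
    (O := O ⊓ centralizer {t}) (fun o ho => h2 o ho.1) (fun o ho => (mc o).1 ho.2)
    (fun g hg o ho => ⟨h3 g (hE g hg) o ho.1, by
      have := (mc g).2 (h.ct g (h.le hg))
      exact Subgroup.mul_mem _ (mul_mem this ho.2) (inv_mem this)⟩)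
    ⟨ho, (mc o).2 (mul_inv_eq_iff_eq_mul.1 e).symm⟩
  have cinv : ∀ s x : G, s * s = 1 →
      s * (x⁻¹ * (s * x * s⁻¹)) * s⁻¹ = (x⁻¹ * (s * x * s⁻¹))⁻¹ := fun s x ss => by
    simp [mul_assoc, inv_eq_of_mul_eq_one_right ss, ← mul_assoc s s, ss]
  have inv : ∀ o ∈ O, t * o * t⁻¹ = o⁻¹ := fun o ho => by
    obtain ⟨c, -, rfl⟩ := Sz.exists_comm_of_free (h3 t (hT h.tT)) free ho
    exact cinv t c h.tt
  have comm : ∀ x ∈ O, ∀ y ∈ O, x * y = y * x := fun x hx y hy => by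
    have := inv _ (mul_mem hx hy)
    rw [show t * (x * y) * t⁻¹ = (t * x * t⁻¹) * (t * y * t⁻¹) by group, inv x hx, inv y hy,
      ← mul_inv_rev, inv_inj] at this
    exact this.symm
  have cj : ∀ {s x y : G}, s * x * s⁻¹ = y →
      (d * s * d⁻¹) * (d * x * d⁻¹) * (d * s * d⁻¹)⁻¹ = d * y * d⁻¹ := fun e => by
    rw [← e]; group
  have mul : ∀ {r s x : G}, r * x * r⁻¹ = x⁻¹ → s * x * s⁻¹ = x⁻¹ → r * s * x * (r * s)⁻¹ = x :=
    fun {r s x} e e' => by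
      rw [show r * s * x * (r * s)⁻¹ = r * (s * x * s⁻¹) * r⁻¹ by group, e',
        show r * x⁻¹ * r⁻¹ = (r * x * r⁻¹)⁻¹ by group, e, inv_inv]
  have tv : ∀ v ∈ E₀, t * v ≠ 1 := fun v hv e =>
    h.tE (eq_inv_of_mul_eq_one_left e ▸ inv_mem (h.le hv))
  have fin : ∀ x ∈ O, ∀ v ∈ h.T, v ∈ E₀ → ∀ w ∈ h.T, v * x * v⁻¹ = x⁻¹ → w * x * w⁻¹ = x →
      v * (d * x * d⁻¹) * v⁻¹ = (d * x * d⁻¹)⁻¹ → w * (d * x * d⁻¹) * w⁻¹ = (d * x * d⁻¹)⁻¹ →
      x = 1 := fun x hx v hv hv' w hw e1 e2 e3 e4 => by_contra fun x1 => by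
    have hy := h3 d (hE d h.dL) x hx
    rw [h.comm_of_inv' (mul_mem h.tT hv) (tv v hv') (mul (inv x hx) e1) (mul (inv _ hy) e3)
      (h2 x hx) (h2 _ hy) x1 (comm _ hy x hx) (inv x hx) (inv _ hy) hw e2] at e4
    exact x1 (by simpa using Sz.eq_one_of_odd_of_sq (h2 _ hy) (mul_eq_one_iff_eq_inv.2 e4))
  have ci : ∀ x, d * x⁻¹ * d⁻¹ = (d * x * d⁻¹)⁻¹ := fun x => by group
  have ca : ∀ o ∈ O, a * o * a⁻¹ = o := fun o ho => by
    have h5 : ∀ x ∈ O, a * x * a⁻¹ = x⁻¹ → x = 1 := fun x hx e => by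
      have h6 := mul_mem (inv_mem hx) (h3 b (hT h.bT) x hx)
      have h7 := cinv b x h.bb
      have h8 : a * (x⁻¹ * (b * x * b⁻¹)) * a⁻¹ = (x⁻¹ * (b * x * b⁻¹))⁻¹ := by
        rw [comm _ (inv_mem hx) _ (h3 b (hT h.bT) x hx), mul_inv_rev]
        calc _ = (a * b * x * (a * b)⁻¹ * (a * x * a⁻¹)⁻¹) := by group
          _ = b * (a * x * a⁻¹) * b⁻¹ * (a * x * a⁻¹)⁻¹ := by rw [h.ab]; group
          _ = _ := by
            rw [e, comm _ (h3 b (hT h.bT) _ (inv_mem hx)) _ (inv_mem (inv_mem hx))]; group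
      have h9 := fin _ h6 b h.bT h.bL _ (mul_mem h.aT h.bT) h7 (mul h8 h7)
        (by rw [← ci, ← cj h8, h.da]) (by rw [← ci, ← cj h7, h.db])
      have e' : b * x * b⁻¹ = x := (inv_mul_eq_one.1 h9).symm
      have e'' : a * b * x * (a * b)⁻¹ = x⁻¹ := by
        rw [← e]; conv_rhs => rw [← e']
        group
      exact fin x hx a h.aT h.aL b h.bT e e' (by rw [← ci, ← cj e'', h.dc])
        (by rw [← ci, ← cj e, h.da])
    exact (inv_mul_eq_one.1 (h5 _ (mul_mem (inv_mem ho) (h3 a (hT h.aT) o ho))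
      (cinv a o h.aa))).symm
  have cE : ∀ g ∈ E₀, ∀ o ∈ O, o * g = g * o := fun g hg => by
    refine ((hS (E₀ ⊓ centralizer (O : Set G)) inf_le_left fun g hg y hy =>
      ⟨h.nrm g (h.le hg) y hy.1, fun o ho => ?_⟩).resolve_left fun e => h.a1 (mem_bot.1
        (e ▸ ⟨h.aL, fun o ho => (mul_inv_eq_iff_eq_mul.1 (ca o ho)).symm⟩))).ge hg |>.2
    have := hy.2 _ (h3 g⁻¹ (inv_mem (hE g hg)) o ho)
    calc o * (g * y * g⁻¹) = g * (g⁻¹ * o * g⁻¹⁻¹ * y) * g⁻¹ := by group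
      _ = _ := by rw [this]; group
  have triv : ∀ x ∈ O, x = 1 := fun x hx => by_contra fun x1 => by
    let φ := (MulAut.conj n).symm
    have φa : φ a = t := by simp [φ, ← nt, mul_assoc]
    have φT : ∀ z ∈ h.T, φ z ∈ h.T := fun z hz => (hn _).2 (by simpa [φ, mul_assoc] using hz)
    have xt : φ x * t = t * φ x := by rw [← φa, ← map_mul, cE a h.aL x hx, map_mul]
    have xo : Odd (orderOf (φ x)) := by rw [MulEquiv.orderOf_eq]; exact h2 x hx
    have xE := h.mem_of_inv xt xo (φT t h.tT)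
      (by simpa only [map_mul, map_inv] using congrArg φ (inv x hx))
    have xx : φ x * φ x ≠ 1 := fun e => x1 (by simpa using Sz.eq_one_of_odd_of_sq xo e)
    obtain ⟨v, hv, e⟩ := h.exists_v (φT b h.bT)
    obtain ⟨w, rfl⟩ := φ.surjective v
    have hw : w = b ∨ w = a * b := e.imp (fun e => (φ.injective e).symm) fun e => by
      rw [← φa, ← map_mul] at e
      rw [φ.injective e, ← mul_assoc, h.aa, one_mul]
    have wV : w = 1 ∨ w = a ∨ w = b ∨ w = a * b := Or.inr (Or.inr hw)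
    have w1 : w ≠ 1 := by rcases hw with rfl | rfl; exacts [h.b1, h.c1]
    have wx : φ w * φ x = φ x * φ w := by rw [← map_mul, ← cE w (h.mem wV) x hx, map_mul]
    obtain ⟨⟨y, yE, yo, y1, ya⟩, -⟩ := h.cyc
      (P := fun v => ∃ y ∈ E₀, Odd (orderOf y) ∧ y ≠ 1 ∧ y * v = v * y)
      (fun v ⟨y, h1, h2, h3, h4⟩ => ⟨d * y * d⁻¹, h.nrm d (h.le h.dL) y h1,
        by rwa [H6.orderOf_conj], by simpa, Commute.conj h4 d⟩)
      (hv.resolve_left (by simpa)) ⟨_, xE, xo, by simpa, wx.symm⟩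
    have zE := h.nrm y (h.le yE) w (h.mem wV)
    have h5 := h.ca _ xE xx _ (h.mem hv) _ (h.nrm' (c := φ y)
      (by rw [← φa, ← map_mul, ya, map_mul]) (h.mem hv)) wx (by
        simpa only [map_mul, map_inv] using congrArg φ (cE _ zE x hx).symm)
    have h6 : w * (y * w * y⁻¹) = y * w * y⁻¹ * w :=
      φ.injective (by simpa only [map_mul, map_inv] using h5)
    have cw : ∀ z ∈ E₀, z * a = a * z → z * w = w * z → z = 1 ∨ z = a ∨ z = b ∨ z = a * b :=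
      fun z hz e1 e2 => h.cent z hz e1 (by
        rcases hw with rfl | rfl
        · exact e2
        · rw [← mul_assoc, e1, mul_assoc, mul_assoc] at e2; exact mul_left_cancel e2)
    have wa : Commute w a := h.commT (h.mem_T.2 (Or.inl wV)) h.aT
    have h7 : y * w * y⁻¹ = w ∨ y * w * y⁻¹ = a * w := by
      rcases cw _ zE ((Commute.mul_left ya wa).mul_left (Commute.inv_left ya)) h6.symm with
        e1 | e1 | e1 | e1
      · exact (w1 (by simpa using e1)).elim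
      · rw [mul_inv_eq_iff_eq_mul, ← ya, mul_right_inj] at e1
        subst e1
        exact (hw.elim h.ne_ab h.ne_ac).elim
      · rw [e1]; exact hw.imp Eq.symm fun e => by rw [e, ← mul_assoc, h.aa, one_mul]
      · rw [e1]; exact hw.symm.imp Eq.symm fun e => by rw [e]
    have h8 : y * y * w * (y * y)⁻¹ = w := by
      rw [show y * y * w * (y * y)⁻¹ = y * (y * w * y⁻¹) * y⁻¹ by group]
      rcases h7 with e1 | e1
      · rw [e1, e1]
      · rw [e1, ← mul_assoc, ya, mul_assoc a, mul_assoc a, e1, ← mul_assoc, h.aa, one_mul]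
    exact y1 (Sz.eq_one_of_odd_of_sq yo (Sz.eq_one_of_odd_of_sq (yo.of_dvd_nat
      (by rw [← pow_two]; exact orderOf_pow_dvd 2)) (h.sq (cw _ (mul_mem yE yE)
        (Commute.mul_left ya ya) (mul_inv_eq_iff_eq_mul.1 h8)))))
  refine hM.not_ge fun g hg => (mc g).2 ?_
  obtain ⟨o, ho, e⟩ := h4 g hg
  simpa [triv o ho] using e

end Ab2

theorem s1245 [BeI] [IsSimpleGroup G] (S : Sylow 2 G) (hS : IsMulCommutative (S : Subgroup G))
    {t : G} (ht : orderOf t = 2) {E E₀ : Subgroup G}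
    (hprod : IsInternalDirectProduct (zpowers t) E (centralizer ({t} : Set G))) (hE₀E : E₀ ≤ E)
    (hE₀n : (E₀.subgroupOf E).Normal)
    (hE₀ : ∃ (F : Type) (_ : Field F) (_ : Fintype F), Odd (Fintype.card F) ∧
      Nonempty (E₀ ≃* Matrix.ProjectiveSpecialLinearGroup (Fin 2) F))
    (hCE : E ⊓ centralizer (E₀ : Set G) = ⊥) : IsCoatom (centralizer ({t} : Set G)) := by
  obtain ⟨F, _, _, hF, ⟨e⟩⟩ := hE₀
  obtain ⟨a, b, d, h⟩ := exists_L2 hF
  obtain ⟨-, h1, h2, h3, h4⟩ := hprod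
  have tt := sq_of_two ht
  refine Ab2.isCoatom (E := E) ⟨h.of_equiv e, fun P hP x hx y hy => ?_, tt,
    fun h => ne_one_of_two ht (mem_bot.1 (h3 ▸ ⟨mem_zpowers t, h⟩)), hE₀E,
    fun e he y hy => hE₀n.conj_mem ⟨y, hE₀E hy⟩ hy ⟨e, he⟩, fun e he => (h2 t (mem_zpowers t) e he).symm,
    fun c hc => ?_, fun e he h => mem_bot.1 (hCE ▸ ⟨he, fun y hy => (h y hy).symm⟩)⟩
  · obtain ⟨g, -, hg⟩ := (isSylowIn_top S).exists_conj_mem hP le_top
    simpa using congrArg Subtype.val (hS.is_comm.comm ⟨_, hg x hx⟩ ⟨_, hg y hy⟩)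
  · let X : Subgroup G :=
      { carrier := {c | c ∈ E ∨ t * c ∈ E}
        mul_mem' := by
          rintro x y (hx | hx) (hy | hy)
          · exact Or.inl (mul_mem hx hy)
          · exact Or.inr (by
              simpa [← mul_assoc, h2 t (mem_zpowers t) x hx] using mul_mem hx hy)
          · exact Or.inr (by simpa [mul_assoc] using mul_mem hx hy)
          · refine Or.inl ?_
            have := mul_mem hx hy
            rwa [← mul_assoc, ← h2 t (mem_zpowers t) _ hx, ← mul_assoc, tt, one_mul] at this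
        one_mem' := Or.inl (one_mem _)
        inv_mem' := by
          rintro x (hx | hx)
          · exact Or.inl (inv_mem hx)
          · refine Or.inr ?_
            have := h2 t (mem_zpowers t) _ hx
            rw [← mul_assoc, tt, one_mul] at this
            rw [this]
            simpa [inv_eq_of_mul_eq_one_right tt, ← mul_assoc, tt] using inv_mem hx }
    have : zpowers t ⊔ E ≤ X := sup_le (zpowers_le.2 (Or.inr (tt ▸ one_mem E))) fun _ => Or.inl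
    exact this (h4 ▸ mem_centralizer_iff.2 (by rintro _ rfl; exact hc.symm))

end Cfsg.Agent.Be
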